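import Cfsg.Agent.ZStar.KleinBlock
import Cfsg.Agent.SolvStruct.FrattiniAux

/-!
# A 2-group in which every subgroup of index two contains an involution with centralizer of order four
-/

set_option autoImplicit false
set_option linter.unusedSectionVars false

namespace CfsgLib.KleinCent

open scoped commutatorElement

universe u

/-- The four elements of a group of order four and exponent two. -/
theorem four_cases {Q : Type u} [Group Q] [Finite Q] (h4 : Nat.card Q = 4) (hsq : ∀ q : Q, q * q = 1) {a b : Q}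
    (ha : a ≠ 1) (hb : b ≠ 1) (hab : a ≠ b) (q : Q) : q = 1 ∨ q = a ∨ q = b ∨ q = a * b := by
  classical
  haveI := Fintype.ofFinite Q
  have h1 : a * b ≠ 1 := fun e => hab (mul_right_cancel (e.trans (hsq b).symm))
  have h2 : a * b ≠ a := fun e => hb (mul_eq_left.1 e)
  have h3 : a * b ≠ b := fun e => ha (mul_eq_right.1 e)
  have h : ({1, a, b, a * b} : Finset Q) = Finset.univ := by
    refine Finset.eq_univ_of_card _ ?_
    rw [← Nat.card_eq_fintype_card, h4, Finset.card_insert_of_notMem (by simp [Ne.symm ha, Ne.symm hb, Ne.symm h1]),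
      Finset.card_insert_of_notMem (by simp [hab, Ne.symm h2]), Finset.card_pair (Ne.symm h3)]
  have := Finset.mem_univ q
  rw [← h] at this
  simpa using this

variable {S : Type u} [Group S] [Finite S]

/-- The action on the coset of an involution with centralizer of order four. -/
theorem coset_facts (hidx : (commutator S).index = 4) (h4 : 4 < Nat.card S) {u : S} (hu : u * u = 1)
    (hc : Nat.card (Subgroup.centralizer ({u} : Set S)) ≤ 4) :
    u ∉ commutator S ∧ ∀ k ∈ commutator S, u * k * u⁻¹ = k⁻¹ ∧ u * k * (u * k) = 1 := by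
  classical
  haveI := Fintype.ofFinite S
  have hsize := ZStar.card_centralizer_mul_class u
  have hcard : Nat.card (commutator S) * 4 = Nat.card S := hidx ▸ (commutator S).card_mul_index
  have hge : Nat.card (commutator S) ≤ Nat.card (conjugatesOf u) := by
    by_contra h
    have := Nat.mul_le_mul hc (Nat.succ_le_of_lt (not_le.1 h))
    have := Nat.card_pos (α := commutator S)
    nlinarith
  let f : conjugatesOf u → commutator S := fun v => ⟨u⁻¹ * v.1, by
    obtain ⟨c, hc'⟩ := isConj_iff.1 (v.2 : IsConj u v.1)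
    rw [← hc', show u⁻¹ * (c * u * c⁻¹) = ⁅u⁻¹, c⁆ by rw [commutatorElement_def]; group, commutator_def]
    exact Subgroup.commutator_mem_commutator (Subgroup.mem_top _) (Subgroup.mem_top _)⟩
  have hinj : Function.Injective f := fun a b h => Subtype.ext (mul_left_cancel (congrArg Subtype.val h))
  have hbij : Function.Bijective f :=
    (Nat.bijective_iff_injective_and_card f).2 ⟨hinj, le_antisymm (Nat.card_le_card_of_injective f hinj) hge⟩
  have hsq : ∀ k ∈ commutator S, u * k * (u * k) = 1 := fun k hk => by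
    obtain ⟨v, hv⟩ := hbij.2 ⟨k, hk⟩
    have e : u⁻¹ * v.1 = k := congrArg Subtype.val hv
    obtain ⟨c, hc'⟩ := isConj_iff.1 (v.2 : IsConj u v.1)
    rw [← e, mul_inv_cancel_left, ← hc', conj_mul, hu, mul_one, mul_inv_cancel]
  refine ⟨fun h => ?_, fun k hk => ⟨?_, hsq k hk⟩⟩
  · obtain ⟨v, hv⟩ := hbij.2 ⟨u⁻¹, inv_mem h⟩
    have e : u⁻¹ * v.1 = u⁻¹ := congrArg Subtype.val hv
    obtain ⟨c, hc'⟩ := isConj_iff.1 (v.2 : IsConj u v.1)
    rw [mul_eq_left.1 e, conj_eq_one_iff] at hc'
    subst hc'
    have htop : Subgroup.centralizer ({(1 : S)} : Set S) = ⊤ :=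
      top_le_iff.1 fun g _ => Subgroup.mem_centralizer_singleton_iff.2 (by simp)
    rw [htop, Subgroup.card_top] at hc
    omega
  · have h := eq_inv_of_mul_eq_one_left (a := u * k * u) (b := k) (by rw [mul_assoc (u * k)]; exact hsq k hk)
    rwa [inv_eq_of_mul_eq_one_right hu]

/-- Such a group has order at most four. -/
theorem card_le_four (hS : IsPGroup 2 S) [Fact (Nat.Prime 2)] (good : S → Prop) {x : S} (hgx : good x)
    (hgsq : ∀ u, good u → u * u = 1) (hgc : ∀ u, good u → Nat.card (Subgroup.centralizer ({u} : Set S)) ≤ 4)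
    (htr : ∀ M : Subgroup S, M.index = 2 → ∃ w ∈ M, good w) : Nat.card S ≤ 4 := by
  classical
  haveI := Fintype.ofFinite S
  by_contra hlt
  have hlt' : 4 < Nat.card S := not_le.1 hlt
  have hxx := hgsq x hgx
  have hcx := hgc x hgx
  have hnab : ¬ ∀ a b : S, a * b = b * a := fun hab => by
    have htop : Subgroup.centralizer ({x} : Set S) = ⊤ :=
      top_le_iff.1 fun g _ => Subgroup.mem_centralizer_singleton_iff.2 (hab g x)
    rw [htop, Subgroup.card_top] at hcx
    omega
  set q := QuotientGroup.mk' (commutator S) with hq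
  have hker : ∀ y, q y = 1 ↔ y ∈ commutator S := fun y => QuotientGroup.eq_one_iff y
  have hsurj : Function.Surjective q := QuotientGroup.mk'_surjective _
  obtain ⟨i, hi⟩ := IsPGroup.exists_card_eq (hS.to_quotient (commutator S))
  have hncyc : ¬ IsCyclic (S ⧸ commutator S) := by
    intro hcyc
    haveI : Group.IsNilpotent S := hS.isNilpotent
    obtain ⟨g, hg⟩ := hcyc.exists_generator
    obtain ⟨g', rfl⟩ := hsurj g
    have htop : Subgroup.zpowers g' ⊔ frattini S = ⊤ := by
      refine top_le_iff.1 fun y _ => ?_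
      obtain ⟨k, hk⟩ := Subgroup.mem_zpowers_iff.1 (hg (q y))
      have hmem : (g' ^ k)⁻¹ * y ∈ commutator S := by
        rw [← hker, map_mul, map_inv, map_zpow, hk, inv_mul_cancel]
      rw [← mul_inv_cancel_left (g' ^ k) y]
      exact Subgroup.mul_mem_sup (Subgroup.zpow_mem_zpowers _ _) (SolvStruct.commutator_le_frattini hmem)
    have h := frattini_nongenerating htop
    refine hnab fun a b => ?_
    obtain ⟨k₁, rfl⟩ := Subgroup.mem_zpowers_iff.1 (h ▸ Subgroup.mem_top a : a ∈ Subgroup.zpowers g')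
    obtain ⟨k₂, rfl⟩ := Subgroup.mem_zpowers_iff.1 (h ▸ Subgroup.mem_top b : b ∈ Subgroup.zpowers g')
    exact zpow_mul_comm g' k₁ k₂
  have hidx : (commutator S).index = 4 := by
    have hsize := ZStar.card_centralizer_mul_class x
    have hle : Nat.card (conjugatesOf x) ≤ Nat.card (commutator S) := by
      refine Nat.card_le_card_of_injective (fun v => (⟨x⁻¹ * v.1, ?_⟩ : commutator S)) fun a b h =>
        Subtype.ext (mul_left_cancel (congrArg Subtype.val h))
      obtain ⟨c, hc⟩ := isConj_iff.1 (v.2 : IsConj x v.1)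
      rw [← hc, show x⁻¹ * (c * x * c⁻¹) = ⁅x⁻¹, c⁆ by rw [commutatorElement_def]; group, commutator_def]
      exact Subgroup.commutator_mem_commutator (Subgroup.mem_top _) (Subgroup.mem_top _)
    have h1 := (commutator S).card_mul_index
    have h2 : (commutator S).index ≤ 4 := by
      have := Nat.mul_le_mul hcx hle
      rw [hsize, ← h1] at this
      exact Nat.le_of_mul_le_mul_left (by linarith) Nat.card_pos
    have h3 : i ≠ 0 ∧ i ≠ 1 := ⟨fun e => hncyc (by
        haveI : Subsingleton (S ⧸ commutator S) := (Nat.card_eq_one_iff_unique.1 (by rw [hi, e, pow_zero])).1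
        infer_instance), fun e => hncyc (isCyclic_of_prime_card (p := 2) (by rw [hi, e, pow_one]))⟩
    have h4 : (commutator S).index = 2 ^ i := hi
    have h5 : i = 2 := by
      by_contra h
      have := Nat.pow_le_pow_right two_pos (show 3 ≤ i by omega)
      omega
    rw [h4, h5]; norm_num
  have h4 : Nat.card (S ⧸ commutator S) = 4 := hidx
  have hqsq : ∀ z : S ⧸ commutator S, z * z = 1 := by
    intro z
    by_contra hz
    refine hncyc (isCyclic_of_orderOf_eq_card z ?_)
    rw [h4, show (4 : ℕ) = 2 ^ (1 + 1) by norm_num]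
    refine orderOf_eq_prime_pow (by rw [pow_one, pow_two]; exact hz) ?_
    rw [show (2 : ℕ) ^ (1 + 1) = 4 by norm_num, ← h4]
    exact pow_card_eq_one'
  have hgK : ∀ u, good u → q u ≠ 1 := fun u hu e =>
    (coset_facts hidx hlt' (hgsq u hu) (hgc u hu)).1 ((hker u).1 e)
  have hinto : ∀ z : S ⧸ commutator S, z ≠ 1 → ∃ w, good w ∧ q w = z := by
    intro z hz
    have hoz : orderOf z = 2 := orderOf_eq_prime (by rw [pow_two]; exact hqsq z) hz
    have hM : ((Subgroup.zpowers z).comap q).index = 2 := by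
      rw [Subgroup.index_comap_of_surjective _ hsurj]
      have := (Subgroup.zpowers z).card_mul_index
      rw [Nat.card_zpowers, hoz, h4] at this
      omega
    obtain ⟨w, hw, hgw⟩ := htr _ hM
    obtain ⟨k, hk⟩ := Subgroup.mem_zpowers_iff.1 (Subgroup.mem_comap.1 hw)
    refine ⟨w, hgw, ?_⟩
    rcases Int.even_or_odd k with ⟨j, rfl⟩ | ⟨j, rfl⟩
    · rw [← two_mul, zpow_mul, show z ^ (2 : ℤ) = 1 by rw [zpow_two, hqsq], one_zpow] at hk
      exact absurd hk.symm (hgK w hgw)
    · rw [zpow_add_one, zpow_mul, show z ^ (2 : ℤ) = 1 by rw [zpow_two, hqsq], one_zpow, one_mul] at hk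
      exact hk.symm
  have hqx := hgK x hgx
  obtain ⟨z, hz1, hzx⟩ : ∃ z : S ⧸ commutator S, z ≠ 1 ∧ z ≠ q x := by
    by_contra hno
    push Not at hno
    have hle : Nat.card (S ⧸ commutator S) ≤ Nat.card Bool :=
      Nat.card_le_card_of_surjective (fun b : Bool => if b then q x else 1) fun z => by
        by_cases hz : z = 1
        · exact ⟨false, by simp [hz]⟩
        · exact ⟨true, by simp [hno z hz]⟩
    rw [h4] at hle
    simp at hle
  obtain ⟨u, hgu, hqu⟩ := hinto z hz1
  obtain ⟨v, hgv, hqv⟩ := hinto (q x * z) (fun e => hzx (mul_left_cancel (e.trans (hqsq (q x)).symm)))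
  obtain ⟨-, hxk⟩ := coset_facts hidx hlt' hxx hcx
  obtain ⟨-, huk⟩ := coset_facts hidx hlt' (hgsq u hgu) (hgc u hgu)
  obtain ⟨-, hvk⟩ := coset_facts hidx hlt' (hgsq v hgv) (hgc v hgv)
  have hxuv : x * u * v ∈ commutator S := by
    rw [← hker, map_mul, map_mul, hqu, hqv, hqsq]
  have hKab : ∀ p ∈ commutator S, ∀ r ∈ commutator S, p * r = r * p := fun p hp r hr => by
    have h1 := (hxk _ (mul_mem hp hr)).1
    rw [← conj_mul, (hxk p hp).1, (hxk r hr).1] at h1
    have h2 := congrArg (fun s => s⁻¹) h1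
    simp only [mul_inv_rev, inv_inv] at h2
    exact h2.symm
  have hK2 : ∀ k ∈ commutator S, k * k = 1 := by
    intro k hk
    have h1 : x * u * v * k * (x * u * v)⁻¹ = k⁻¹ := by
      calc x * u * v * k * (x * u * v)⁻¹ = x * (u * (v * k * v⁻¹) * u⁻¹) * x⁻¹ := by group
        _ = x * (u * k⁻¹ * u⁻¹) * x⁻¹ := by rw [(hvk k hk).1]
        _ = x * k * x⁻¹ := by rw [(huk _ (inv_mem hk)).1, inv_inv]
        _ = k⁻¹ := (hxk k hk).1
    rw [hKab _ hxuv k hk, mul_inv_cancel_right] at h1
    calc k * k = k * k⁻¹ := by rw [← h1]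
      _ = 1 := mul_inv_cancel k
  have hall : ∀ y : S, y * y = 1 := by
    intro y
    have key : ∀ g : S, (∀ k ∈ commutator S, g * k * (g * k) = 1) → q g = q y → y * y = 1 := fun g hg e => by
      have hm : g⁻¹ * y ∈ commutator S := by rw [← hker, map_mul, map_inv, e, inv_mul_cancel]
      have := hg _ hm
      rwa [mul_inv_cancel_left] at this
    rcases four_cases h4 hqsq hqx hz1 (Ne.symm hzx) (q y) with h | h | h | h
    · exact hK2 y ((hker y).1 h)
    · exact key x (fun k hk => (hxk k hk).2) h.symm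
    · exact key u (fun k hk => (huk k hk).2) (hqu.trans h.symm)
    · exact key v (fun k hk => (hvk k hk).2) (hqv.trans h.symm)
  refine hnab fun a b => ?_
  calc a * b = a * (a * b * (a * b)) * b := by rw [hall (a * b), mul_one]
    _ = (a * a) * (b * a) * (b * b) := by group
    _ = b * a := by rw [hall a, hall b, one_mul, mul_one]

end CfsgLib.KleinCent
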