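import Cfsg.Agent.KleinCent.Sylow
import Cfsg.Agent.ZStar.KleinOrder
import Cfsg.Agent.Invol.KleinFour
import Cfsg.Agent.Blocks.Glauberman
import Cfsg.Agent.Clifford.LinChar
import Cfsg.Agent.DivSL25.Main

/-!
# Simple groups with an involution centralizer having a normal Klein four Sylow 2-subgroup
-/

set_option autoImplicit false
set_option linter.unusedSectionVars false

namespace CfsgLib.KleinCent

open Cfsg CfsgLib.CharBasics

universe u

theorem klein_comm {G : Type u} [Group G] [Finite G] {V : Subgroup G} (hV : IsKleinFour V) {a b : G} (ha : a ∈ V) (hb : b ∈ V) :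
    a * b = b * a := by
  have h := ZStar.klein_sq hV (mul_mem ha hb)
  calc a * b = a * (a * b * (a * b)) * b := by rw [h, mul_one]
    _ = (a * a) * (b * a) * (b * b) := by group
    _ = b * a := by rw [ZStar.klein_sq hV ha, ZStar.klein_sq hV hb, one_mul, mul_one]

/-- The bound on the index from the degrees. -/
theorem index_le_five {x y z : ℕ} {e f g : ℤ} (he : e = 1 ∨ e = -1) (hf : f = 1 ∨ f = -1) (hg : g = 1 ∨ g = -1)
    (hx : 1 < x) (hy : 1 < y) (hz : 1 < z) (dx : (4 : ℤ) ∣ (x : ℤ) - e) (dy : (4 : ℤ) ∣ (y : ℤ) - f)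
    (dz : (4 : ℤ) ∣ (z : ℤ) - g) (hrel : 1 + (e * x + (f * y + g * z)) = 0) {m : ℕ}
    (hm : (3 * m : ℚ) * (1 + ((e : ℚ) / x + ((f : ℚ) / y + (g : ℚ) / z))) = 8) : m ≤ 5 := by
  have hx0 : (3 : ℚ) ≤ x := by exact_mod_cast (show 3 ≤ x by rcases he with rfl | rfl <;> omega)
  have hy0 : (3 : ℚ) ≤ y := by exact_mod_cast (show 3 ≤ y by rcases hf with rfl | rfl <;> omega)
  have hz0 : (3 : ℚ) ≤ z := by exact_mod_cast (show 3 ≤ z by rcases hg with rfl | rfl <;> omega)
  -- the bound of a pair of negative signs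
  have pair : ∀ a b c : ℕ, (3 : ℚ) ≤ a → (3 : ℚ) ≤ b → c + 1 = a + b →
      (3 * m : ℚ) * (1 + (-1 / (a : ℚ) + (-1 / (b : ℚ) + 1 / (c : ℚ)))) = 8 → m ≤ 5 := by
    intro a b c ha hb hc h
    have hcq : (c : ℚ) = a + b - 1 := by
      rw [eq_sub_iff_add_eq]; exact_mod_cast hc
    have key : (8 : ℚ) / 15 ≤ 1 + (-1 / (a : ℚ) + (-1 / (b : ℚ) + 1 / (c : ℚ))) := by
      rw [hcq]
      have e1 : 1 / (a : ℚ) - 1 / ((a : ℚ) + b - 1) = ((b : ℚ) - 1) / ((a : ℚ) * (a + b - 1)) := by
        rw [div_sub_div _ _ (by linarith) (by linarith)]; ring_nf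
      have e2 : 1 / (3 : ℚ) - 1 / ((b : ℚ) + 2) = ((b : ℚ) - 1) / (3 * (b + 2)) := by
        rw [div_sub_div _ _ (by norm_num) (by linarith)]; ring_nf
      have e3 : 1 / (b : ℚ) - 1 / ((b : ℚ) + 2) = 2 / ((b : ℚ) * (b + 2)) := by
        rw [div_sub_div _ _ (by linarith) (by linarith)]; ring_nf
      have i1 : ((b : ℚ) - 1) / ((a : ℚ) * (a + b - 1)) ≤ ((b : ℚ) - 1) / (3 * (b + 2)) :=
        div_le_div_of_nonneg_left (by linarith) (by positivity) (mul_le_mul ha (by linarith) (by linarith) (by linarith))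
      have i2 : (2 : ℚ) / ((b : ℚ) * (b + 2)) ≤ 2 / 15 :=
        div_le_div_of_nonneg_left (by norm_num) (by norm_num) (by nlinarith)
      rw [← e1, ← e2] at i1
      rw [← e3] at i2
      rw [neg_div, neg_div]
      linarith
    have : (m : ℚ) ≤ 5 := by
      by_contra hlt
      have := mul_le_mul_of_nonneg_left key (show (0 : ℚ) ≤ 3 * m by positivity)
      linarith
    exact_mod_cast this
  -- the bound of a single negative sign
  have single : ∀ a b c : ℕ, (3 : ℚ) ≤ b → (3 : ℚ) ≤ c → a = 1 + b + c →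
      (3 * m : ℚ) * (1 + (-1 / (a : ℚ) + (1 / (b : ℚ) + 1 / (c : ℚ)))) = 8 → m ≤ 5 := by
    intro a b c hb hc ha h
    have hp : (0 : ℚ) ≤ 1 / (b : ℚ) + 1 / (c : ℚ) := by positivity
    have haq : (7 : ℚ) ≤ a := by rw [show (a : ℚ) = 1 + b + c by exact_mod_cast ha]; linarith
    have hn : (-1 : ℚ) / 7 ≤ -1 / (a : ℚ) := by
      rw [div_le_div_iff₀ (by norm_num) (by linarith)]; linarith
    have : (m : ℚ) ≤ 5 := by
      by_contra hlt
      have := mul_le_mul_of_nonneg_left (show (6 : ℚ) / 7 ≤ 1 + (-1 / (a : ℚ) + (1 / (b : ℚ) + 1 / (c : ℚ))) by linarith)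
        (show (0 : ℚ) ≤ 3 * m by positivity)
      linarith
    exact_mod_cast this
  rcases he with rfl | rfl <;> rcases hf with rfl | rfl <;> rcases hg with rfl | rfl <;> push_cast at hm hrel
  · omega
  · exact single z x y hx0 hy0 (by omega) (by linear_combination hm)
  · exact single y x z hx0 hz0 (by omega) (by linear_combination hm)
  · exact pair y z x hy0 hz0 (by omega) (by linear_combination hm)
  · exact single x y z hy0 hz0 (by omega) (by linear_combination hm)
  · exact pair x z y hx0 hz0 (by omega) (by linear_combination hm)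
  · exact pair x y z hx0 hy0 (by omega) (by linear_combination hm)
  · omega

variable {G : Type u} [Group G] [Fintype G] [IsSimpleGroup G]

theorem nonempty_iso_alternating {x : G} (hx : orderOf x = 2) {V : Subgroup G}
    (hle : V ≤ Subgroup.centralizer ({x} : Set G)) (hK : IsKleinFour V)
    (hodd : ¬ 2 ∣ V.relIndex (Subgroup.centralizer ({x} : Set G)))
    (hn : (V.subgroupOf (Subgroup.centralizer ({x} : Set G))).Normal) :
    Nonempty (G ≃* ↥(alternatingGroup (Fin 5))) := by
  classical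
  haveI : Fact (Nat.Prime 2) := ⟨Nat.prime_two⟩
  haveI := hK
  set C := Subgroup.centralizer ({x} : Set G) with hC
  have hV4 : Nat.card V = 4 := hK.card_four
  haveI := hn
  have hpV : ∀ y ∈ C, (∃ k, orderOf y = 2 ^ k) → y ∈ V := by
    intro y hy hk
    obtain ⟨k, hk⟩ := hk
    let Q : Sylow 2 C := IsPGroup.toSylow (IsPGroup.of_card (p := 2) (n := 2) (by
      rw [Nat.card_congr (Subgroup.subgroupOfEquivOfLe hle).toEquiv, hV4]; norm_num)) hodd
    haveI : ((Q : Subgroup C)).Normal := hn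
    haveI := Sylow.unique_of_normal Q hn
    obtain ⟨R, hR⟩ := (IsPGroup.of_card (n := k) (by rw [Nat.card_zpowers, Subgroup.orderOf_mk, hk]) :
      IsPGroup 2 (Subgroup.zpowers (⟨y, hy⟩ : C))).exists_le_sylow
    rw [Subsingleton.elim R Q] at hR
    exact hR (Subgroup.mem_zpowers _)
  have hx1 : x ≠ 1 := fun e => by rw [e, orderOf_one] at hx; omega
  have hxC : x ∈ C := Subgroup.mem_centralizer_singleton_iff.2 rfl
  have hxV : x ∈ V := hpV x hxC ⟨1, by rw [hx, pow_one]⟩
  have hfix : ∀ c ∈ C, ∀ v ∈ V, c * v * c⁻¹ = v := by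
    intro c hc v hv
    obtain ⟨h1, -, hp, ho, hpz, hrz⟩ := ZStar.part_spec (p := 2) c
    have hp' : ZStar.ppart 2 c ∈ V := hpV _ (Subgroup.zpowers_le.2 hc hpz) hp
    have hr : ZStar.prest 2 c ∈ C := Subgroup.zpowers_le.2 hc hrz
    have hnV : ∀ d ∈ C, ∀ w ∈ V, d * w * d⁻¹ ∈ V := fun d hd w hw =>
      hn.conj_mem (⟨w, hle hw⟩ : C) hw ⟨d, hd⟩
    have hvc : ∀ a ∈ V, ∀ b ∈ V, a * b = b * a := fun a ha b hb =>
      klein_comm hK ha hb
    calc c * v * c⁻¹ = ZStar.ppart 2 c * (ZStar.prest 2 c * v * (ZStar.prest 2 c)⁻¹) * (ZStar.ppart 2 c)⁻¹ := by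
          conv_lhs => rw [← h1]
          group
      _ = v := by rw [centralizer_fixes hxV hx1 hK hnV hr ho v hv, hvc _ hp' v hv, mul_inv_cancel_right]
  have hCV : C = Subgroup.centralizer (V : Set G) := by
    refine le_antisymm (fun c hc => Subgroup.mem_centralizer_iff.2 fun v hv => ?_) (Subgroup.centralizer_le (by simpa using hxV))
    exact (mul_inv_eq_iff_eq_mul.1 (hfix c hc v hv)).symm
  -- no normal subgroup of small index
  have hnonab : ¬ ∀ a b : G, a * b = b * a := by
    intro hab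
    have hp := (Finite.one_lt_card_iff_nontrivial.2 inferInstance : 1 < Nat.card G)
    letI : CommGroup G := { (inferInstance : Group G) with mul_comm := hab }
    have hpr : (Nat.card G).Prime := IsSimpleGroup.prime_card
    have h4 : 4 ∣ Nat.card G := hV4 ▸ Subgroup.card_subgroup_dvd_card V
    have := (Nat.prime_dvd_prime_iff_eq Nat.prime_two hpr).1 (dvd_trans (by norm_num) h4)
    rw [← this] at h4
    norm_num at h4
  have hperf : ∀ {A : Type} [CommGroup A] (f : G →* A), f = 1 := by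
    intro A _ f
    rcases IsSimpleGroup.eq_bot_or_eq_top_of_normal f.ker inferInstance with h | h
    · refine absurd (fun a b => ?_) hnonab
      exact (MonoidHom.ker_eq_bot_iff f).1 h (by rw [map_mul, map_mul, mul_comm])
    · exact MonoidHom.ext fun g => MonoidHom.mem_ker.1 (h ▸ Subgroup.mem_top g)
  obtain ⟨S, hS⟩ := (IsPGroup.of_card (p := 2) (n := 2) (by rw [hV4]; norm_num) : IsPGroup 2 V).exists_le_sylow
  have hVS : V = (S : Subgroup G) := sylow_eq (fun f => hperf f) hx hxV hK S hS hpV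
  have hKS : IsKleinFour (S : Subgroup G) := hVS ▸ hK
  -- fusion
  have hnle : ¬ Subgroup.normalizer ((S : Subgroup G) : Set G) ≤ Subgroup.centralizer ((S : Subgroup G) : Set G) := by
    intro hle'
    have hT := MonoidHom.ker_transferSylow_isComplement' S hle'
    rcases IsSimpleGroup.eq_bot_or_eq_top_of_normal (MonoidHom.transferSylow S hle').ker inferInstance with h | h
    · refine hnonab fun a b => ?_
      have := hT.card_mul
      rw [h, Subgroup.card_bot, one_mul] at this
      have htop := Subgroup.eq_top_of_card_eq _ this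
      exact klein_comm hKS (htop ▸ Subgroup.mem_top a) (htop ▸ Subgroup.mem_top b)
    · have := hT.card_mul
      rw [h, Subgroup.card_top, ← hVS, hV4] at this
      have := Nat.card_pos (α := G)
      omega
  have hone : ∀ s t : G, orderOf s = 2 → orderOf t = 2 → IsConj s t := by
    have hne : ¬ Function.Injective (Invol.kleinMap S hKS) := by
      intro hinj
      refine hnle fun n hn => Subgroup.mem_centralizer_iff.2 fun w hw => ?_
      by_cases hw1 : w = 1
      · subst hw1; simp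
      have hnw : n * w * n⁻¹ ∈ (S : Subgroup G) := (Subgroup.mem_normalizer_iff.1 hn w).1 hw
      have hnw1 : n * w * n⁻¹ ≠ 1 := fun e => hw1 (conj_eq_one_iff.1 e)
      have e := @hinj ⟨⟨w, hw⟩, fun e => hw1 (congrArg Subtype.val e)⟩ ⟨⟨_, hnw⟩, fun e => hnw1 (congrArg Subtype.val e)⟩
        (Subtype.ext (ConjClasses.mk_eq_mk_iff_isConj.2 (isConj_iff.2 ⟨n, rfl⟩)))
      exact eq_mul_inv_iff_mul_eq.1 (congrArg (fun v : {a : (S : Subgroup G) // a ≠ 1} => (v.1 : G)) e)
    have hlt : Nat.card (Invol.InvClass G) < 3 := by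
      rw [← Invol.card_kleinDom S hKS]
      refine lt_of_le_of_ne (Nat.card_le_card_of_surjective _ (Invol.kleinMap_surjective S hKS)) fun e => hne ?_
      exact ((Nat.bijective_iff_surjective_and_card _).2 ⟨Invol.kleinMap_surjective S hKS, e.symm⟩).1
    intro s t hs ht
    have := (Nat.card_eq_one_iff_unique.1 ((Invol.card_invClass_eq_one_or_three S hKS).resolve_right hlt.ne)).1.elim
      (⟨ConjClasses.mk s, s, hs, rfl⟩ : Invol.InvClass G) ⟨ConjClasses.mk t, t, ht, rfl⟩
    exact ConjClasses.mk_eq_mk_iff_isConj.1 (congrArg Subtype.val this)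
  -- the normalizer
  set N := Subgroup.normalizer (V : Set G) with hN
  have hCN : C ≤ N := by rw [hCV]; exact fun c hc => Subgroup.mem_normalizer_iff.2 fun v => ⟨fun hv => by rwa [← Subgroup.mem_centralizer_iff.1 hc v hv, mul_inv_cancel_right], fun hv => by
      have h := Subgroup.mem_centralizer_iff.1 hc _ hv
      rw [mul_assoc (c * v), inv_mul_cancel, mul_one] at h
      rw [mul_left_cancel h]; exact hv⟩
  have hNC : Nat.card N = 3 * Nat.card C := by
    have hxN : ∀ y : V, y ≠ 1 → ∃ n : N, (n : G) * x * (n : G)⁻¹ = y := by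
      intro y hy
      have hy1 : (y : G) ≠ 1 := fun e => hy (Subtype.ext e)
      obtain ⟨g, hg⟩ := isConj_iff.1 (hone x y hx (ZStar.klein_orderOf hK y.2 hy1))
      haveI : IsMulCommutative (S : Subgroup G) := ⟨⟨fun a b => Subtype.ext (klein_comm hKS a.2 b.2)⟩⟩
      obtain ⟨n, hn', e⟩ := S.conj_eq_normalizer_conj_of_mem (x := x) (g := g⁻¹) (show x ∈ (S : Subgroup G) by rw [← hVS]; exact hxV)
        (show g⁻¹⁻¹ * x * g⁻¹ ∈ (S : Subgroup G) by rw [inv_inv, hg, ← hVS]; exact y.2)
      rw [inv_inv, hg] at e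
      exact ⟨⟨n⁻¹, by rw [hN, hVS]; exact inv_mem hn'⟩, by rw [Subgroup.coe_mk, inv_inv]; exact e.symm⟩
    let π : N → {y : V // y ≠ 1} := fun n => ⟨⟨(n : G) * x * (n : G)⁻¹,
      (Subgroup.mem_normalizer_iff.1 n.2 x).1 hxV⟩, fun e => hx1 (conj_eq_one_iff.1 (congrArg Subtype.val e))⟩
    rw [← Nat.card_congr (Equiv.sigmaFiberEquiv π), Nat.card_sigma,
      Finset.sum_congr rfl (g := fun _ => Nat.card C) (fun y _ => ?_), Finset.sum_const, Finset.card_univ,
      ← Nat.card_eq_fintype_card, smul_eq_mul]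
    · congr 1
      haveI := Fintype.ofFinite V
      rw [Nat.card_eq_fintype_card, Fintype.card_subtype_compl, Fintype.card_subtype_eq, ← Nat.card_eq_fintype_card, hV4]
    · obtain ⟨n, hn'⟩ := hxN y.1 y.2
      exact (Nat.card_congr
        { toFun := fun c : C => (⟨n * ⟨c.1, hCN c.2⟩, Subtype.ext (Subtype.ext (by
            show (n : G) * c * x * ((n : G) * c)⁻¹ = ((y.1 : V) : G)
            rw [← hn', mul_assoc (n : G), Subgroup.mem_centralizer_singleton_iff.1 c.2]
            group))⟩ : {m // π m = y})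
          invFun := fun m => ⟨(n : G)⁻¹ * (m.1 : G), Subgroup.mem_centralizer_singleton_iff.2 (by
            have e : (m.1 : G) * x * (m.1 : G)⁻¹ = (n : G) * x * (n : G)⁻¹ := by
              rw [hn']; exact congrArg (fun v : {y : V // y ≠ 1} => ((v.1 : V) : G)) m.2
            calc (n : G)⁻¹ * (m.1 : G) * x = (n : G)⁻¹ * ((m.1 : G) * x * (m.1 : G)⁻¹) * m.1 := by group
              _ = x * ((n : G)⁻¹ * (m.1 : G)) := by rw [e]; group)⟩
          left_inv := fun c => Subtype.ext (by simp)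
          right_inv := fun m => Subtype.ext (Subtype.ext (by simp)) }).symm
  obtain ⟨M, hM⟩ := Blocks.exists_modular Nat.prime_two
  obtain ⟨T, a, hT, hT1, hpm, hB, hval, hdvd, hrel⟩ := ZStar.klein_main S hKS hone hM
  have key := ZStar.klein_order hKS hone hM (fun χ hχ => by rw [hB]; exact Or.inr hχ) hpm hT hval hrel hx
  have hrel1 := hrel 1 (by rw [orderOf_one]; norm_num)
  obtain ⟨a₁, a₂, a₃, h12, h13, h23, hTeq⟩ := Finset.card_eq_three.1 hT
  have hex : ∀ f : IrrCharacter G → ℂ, ∑ χ ∈ T, f χ = f a₁ + (f a₂ + f a₃) := fun f => by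
    rw [hTeq, Finset.sum_insert (by simp [h12, h13]), Finset.sum_pair h23]
  have hdeg : ∀ χ : IrrCharacter G, (χ : G → ℂ) 1 = (charDegree (χ : G → ℂ) : ℂ) := fun χ =>
    apply_one (isCharacter_of_irr χ.2)
  rw [hex, hdeg, hdeg, hdeg] at key hrel1
  have hgt : ∀ χ ∈ T, 1 < charDegree (χ : G → ℂ) := by
    intro χ hχ
    by_contra h
    have hd : charDegree (χ : G → ℂ) = 1 := le_antisymm (not_lt.1 h) (charDegree_pos χ.2)
    obtain ⟨f, hf⟩ := Clifford.exists_hom_of_linear (isCharacter_of_irr χ.2) (by rw [hdeg, hd, Nat.cast_one])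
    have hf1 := hperf f.toHomUnits
    refine hT1 ((Subtype.ext (hf.trans (funext fun g => ?_)) : χ = oneChar) ▸ hχ)
    rw [oneChar_apply, ← MonoidHom.coe_toHomUnits f g, hf1]
    simp
  have hcS : Subgroup.centralizer ((S : Subgroup G) : Set G) = C := by rw [← hVS, ← hCV]
  rw [hcS] at key
  set m := N.index with hm
  have hG : Nat.card G = 3 * Nat.card C * m := by rw [hm, ← hNC, N.card_mul_index]
  have hCpos : (Nat.card C : ℚ) ≠ 0 := Nat.cast_ne_zero.2 Nat.card_pos.ne'
  have hm5 : m ≤ 5 := by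
    have hmem : a₁ ∈ T ∧ a₂ ∈ T ∧ a₃ ∈ T := by rw [hTeq]; simp
    refine index_le_five (hpm _ hmem.1) (hpm _ hmem.2.1) (hpm _ hmem.2.2) (hgt _ hmem.1) (hgt _ hmem.2.1)
      (hgt _ hmem.2.2) (hdvd _ hmem.1) (hdvd _ hmem.2.1) (hdvd _ hmem.2.2) ?_ ?_
    · exact Int.cast_injective (α := ℂ) (by push_cast; exact hrel1)
    · have k1 : (Nat.card G : ℚ) * (1 + ((a a₁ : ℚ) / charDegree (a₁ : G → ℂ) +
          ((a a₂ : ℚ) / charDegree (a₂ : G → ℂ) + (a a₃ : ℚ) / charDegree (a₃ : G → ℂ)))) * (Nat.card C : ℚ) ^ 2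
          = 8 * (Nat.card C : ℚ) ^ 3 := Rat.cast_injective (α := ℂ) (by push_cast; exact key)
      rw [hG] at k1
      push_cast at k1
      refine mul_right_cancel₀ (pow_ne_zero 3 hCpos) ?_
      linear_combination k1
  -- the action on the cosets of the normalizer
  have hNtop : N ≠ ⊤ := by
    intro h
    have hVn : V.Normal := Subgroup.normalizer_eq_top_iff.1 h
    rcases IsSimpleGroup.eq_bot_or_eq_top_of_normal V hVn with h' | h'
    · rw [h', Subgroup.card_bot] at hV4; omega
    · refine hnonab fun p q => ?_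
      exact klein_comm hK (h' ▸ Subgroup.mem_top p) (h' ▸ Subgroup.mem_top q)
  let f := MulAction.toPermHom G (G ⧸ N)
  have hinj : Function.Injective f := by
    rw [← MonoidHom.ker_eq_bot_iff]
    refine (IsSimpleGroup.eq_bot_or_eq_top_of_normal f.ker inferInstance).resolve_right fun h => hNtop ?_
    refine top_le_iff.1 fun g _ => ?_
    have hg : f g = 1 := MonoidHom.mem_ker.1 (h ▸ Subgroup.mem_top g)
    have := congrArg (fun σ : Equiv.Perm (G ⧸ N) => σ (QuotientGroup.mk 1)) hg
    simp [f, QuotientGroup.eq] at this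
    exact this
  haveI : Fintype (G ⧸ N) := Fintype.ofFinite _
  let ι : (G ⧸ N) ↪ Fin 5 := (Function.Embedding.nonempty_of_card_le (by
    rw [← Nat.card_eq_fintype_card, Fintype.card_fin]; exact hm5)).some
  let F : G →* Equiv.Perm (Fin 5) := (Equiv.Perm.viaEmbeddingHom ι).comp f
  have hFinj : Function.Injective F := (Equiv.Perm.viaEmbeddingHom_injective ι).comp hinj
  have hFalt : ∀ g, F g ∈ alternatingGroup (Fin 5) := fun g => by
    rw [Equiv.Perm.mem_alternatingGroup]
    exact DFunLike.congr_fun (hperf (Equiv.Perm.sign.comp F)) g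
  let F' : G →* alternatingGroup (Fin 5) := F.codRestrict _ hFalt
  have hF'inj : Function.Injective F' := fun g h e => hFinj (congrArg Subtype.val e)
  have h60 : Nat.card (alternatingGroup (Fin 5)) = 60 := by
    rw [nat_card_alternatingGroup, Nat.card_eq_fintype_card, Fintype.card_fin]; rfl
  have hdvd60 : Nat.card G ∣ 60 := h60 ▸ Subgroup.card_dvd_of_injective F' hF'inj
  refine ⟨MulEquiv.ofBijective F' ((Nat.bijective_iff_injective_and_card _).2 ⟨hF'inj, ?_⟩)⟩
  rw [h60]
  -- simplicity forces index five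
  have h4 : 4 ∣ Nat.card C := hV4 ▸ Subgroup.card_dvd_of_le hle
  have hm2 : 5 ≤ m := by
    by_contra hlt
    have hm4 : m ≤ 4 := by omega
    let ι' : (G ⧸ N) ↪ Fin 4 := (Function.Embedding.nonempty_of_card_le (by
      rw [← Nat.card_eq_fintype_card, Fintype.card_fin]; exact hm4)).some
    let F4 : G →* Equiv.Perm (Fin 4) := (Equiv.Perm.viaEmbeddingHom ι').comp f
    have h4inj : Function.Injective F4 := (Equiv.Perm.viaEmbeddingHom_injective ι').comp hinj
    haveI : Group.IsSolvable (Equiv.Perm (Fin 4)) := DivSL25.isSolvable_perm_four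
    haveI : Group.IsSolvable G := solvable_of_solvable_injective h4inj
    exact hnonab (IsSimpleGroup.comm_iff_isSolvable.2 ‹_›)
  have h5 : m = 5 := by omega
  rw [h5] at hG
  obtain ⟨k, hk⟩ := h4
  have := Nat.le_of_dvd (by norm_num) hdvd60
  have := Nat.card_pos (α := C)
  have hk1 : k = 1 := by
    by_contra
    omega
  omega

end CfsgLib.KleinCent
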