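import Cfsg.Agent.TransferEval.Basic
import Cfsg.Agent.ZJ.NilpotentMaximal
import Cfsg.Agent.ZStar.KleinBlock
import Cfsg.Agent.KleinCent.Abstract

/-!
# An involution whose centralizer has a normal Klein four Sylow 2-subgroup in a group without index two
-/

set_option autoImplicit false
set_option linter.unusedSectionVars false

namespace CfsgLib.KleinCent

universe u

variable {G : Type u} [Group G] [Finite G]

/-- The centralizer is the centralizer of the four-group. -/
theorem centralizer_fixes {x : G} {V : Subgroup G} (hxV : x ∈ V) (hx1 : x ≠ 1) (hK : IsKleinFour V)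
    (hn : ∀ c ∈ Subgroup.centralizer ({x} : Set G), ∀ v ∈ V, c * v * c⁻¹ ∈ V)
    {c : G} (hc : c ∈ Subgroup.centralizer ({x} : Set G)) (hodd : ¬ 2 ∣ orderOf c) :
    ∀ v ∈ V, c * v * c⁻¹ = v := by
  classical
  haveI := hK
  haveI := Fintype.ofFinite V
  intro v hv
  have hcx : c * x * c⁻¹ = x := by
    rw [Subgroup.mem_centralizer_singleton_iff.1 hc, mul_inv_cancel_right]
  by_cases hv1 : v = 1
  · subst hv1; group
  by_cases hvx : v = x
  · subst hvx; exact hcx
  have hcase : ∀ w ∈ V, w = 1 ∨ w = x ∨ w = v ∨ w = x * v := by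
    intro w hw
    have h4 : (Finset.univ : Finset V) = {1, ⟨x, hxV⟩, ⟨v, hv⟩, ⟨x * v, mul_mem hxV hv⟩} := by
      refine (Finset.eq_univ_of_card _ ?_).symm
      rw [← Nat.card_eq_fintype_card, IsKleinFour.card_four]
      have hxv1 : x * v ≠ 1 := fun e => hvx (by
        have h := ZStar.klein_sq hK hxV
        exact mul_left_cancel (e.trans h.symm))
      rw [Finset.card_insert_of_notMem, Finset.card_insert_of_notMem, Finset.card_pair] <;>
        simp [Subtype.ext_iff, hx1, hv1, Ne.symm hx1, Ne.symm hv1, Ne.symm hvx, Ne.symm hxv1, mul_eq_left, mul_eq_right]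
    have := h4 ▸ Finset.mem_univ (⟨w, hw⟩ : V)
    simpa [Subtype.ext_iff] using this
  rcases hcase _ (hn c hc v hv) with h | h | h | h
  · exact absurd (conj_eq_one_iff.1 h) hv1
  · exact absurd (mul_left_cancel (mul_right_cancel (h.trans hcx.symm))) hvx
  · exact h
  · exfalso
    have hxx := ZStar.klein_sq hK hxV
    have hpow : ∀ r : ℕ, c ^ (2 * r) * v * (c ^ (2 * r))⁻¹ = v := by
      intro r
      induction r with
      | zero => simp
      | succ r ih =>
        calc c ^ (2 * (r + 1)) * v * (c ^ (2 * (r + 1)))⁻¹ = c * (c * (c ^ (2 * r) * v * (c ^ (2 * r))⁻¹) * c⁻¹) * c⁻¹ := by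
              rw [show 2 * (r + 1) = 1 + (1 + 2 * r) by ring, pow_add, pow_add]; group
          _ = c * (x * v) * c⁻¹ := by rw [ih, h]
          _ = (c * x * c⁻¹) * (c * v * c⁻¹) := by group
          _ = v := by rw [hcx, h, ← mul_assoc, hxx, one_mul]
    obtain ⟨r, hr⟩ := Nat.odd_iff.2 (Nat.mod_two_ne_zero.1 fun e => hodd (Nat.dvd_of_mod_eq_zero e))
    have h2 : c * v * c⁻¹ = v := by
      calc c * v * c⁻¹ = c * (c ^ (2 * r) * v * (c ^ (2 * r))⁻¹) * c⁻¹ := by rw [hpow r]
        _ = c ^ (2 * r + 1) * v * (c ^ (2 * r + 1))⁻¹ := by rw [pow_succ']; group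
        _ = v := by rw [← hr, pow_orderOf_eq_one, inv_one, one_mul, mul_one]
    rw [h2] at h
    exact hx1 (mul_eq_right.1 h.symm)

variable [Fact (Nat.Prime 2)]

/-- The four-group is a Sylow 2-subgroup of the group. -/
theorem sylow_eq (hG : ∀ f : G →* ℤˣ, f = 1) {x : G} (hx : orderOf x = 2) {V : Subgroup G} (hxV : x ∈ V)
    (hK : IsKleinFour V) (S : Sylow 2 G) (hVS : V ≤ (S : Subgroup G))
    (h2 : ∀ y ∈ Subgroup.centralizer ({x} : Set G), (∃ k, orderOf y = 2 ^ k) → y ∈ V) : V = (S : Subgroup G) := by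
  classical
  haveI := hK
  by_contra hne
  -- involutions fused to `x` have small centralizers in `S`
  have hsmall : ∀ u : (S : Subgroup G), IsConj x (u : G) → Nat.card (Subgroup.centralizer ({u} : Set (S : Subgroup G))) ≤ 4 := by
    intro u hu
    obtain ⟨g, hg⟩ := isConj_iff.1 hu
    rw [← hK.card_four]
    refine Nat.card_le_card_of_injective (fun y => (⟨g⁻¹ * ((y : (S : Subgroup G)) : G) * g, h2 _ ?_ ?_⟩ : V)) ?_
    · refine Subgroup.mem_centralizer_singleton_iff.2 ?_
      have h := congrArg Subtype.val (Subgroup.mem_centralizer_singleton_iff.1 y.2)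
      change ((y : (S : Subgroup G)) : G) * u = u * ((y : (S : Subgroup G)) : G) at h
      rw [← hg] at h
      calc g⁻¹ * ((y : (S : Subgroup G)) : G) * g * x = g⁻¹ * (((y : (S : Subgroup G)) : G) * (g * x * g⁻¹)) * g := by group
        _ = x * (g⁻¹ * ((y : (S : Subgroup G)) : G) * g) := by rw [h]; group
    · obtain ⟨k, hk⟩ := IsPGroup.iff_orderOf.1 S.2 (y : (S : Subgroup G))
      refine ⟨k, ?_⟩
      have := (MulAut.conj g⁻¹).orderOf_eq ((y : (S : Subgroup G)) : G)
      rw [MulAut.conj_apply, inv_inv] at this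
      rw [this, Subgroup.orderOf_coe, hk]
    · intro a b h
      exact Subtype.ext (Subtype.ext (mul_left_cancel (mul_right_cancel (congrArg Subtype.val h))))
  have hxS : x ∈ (S : Subgroup G) := hVS hxV
  have hxx : x * x = 1 := ZStar.klein_sq hK hxV
  have h4 : Nat.card (S : Subgroup G) ≤ 4 := by
    refine card_le_four S.2 (fun u => IsConj x (u : G)) (x := ⟨x, hxS⟩) (IsConj.refl x) (fun u hu => ?_) hsmall
      (fun M hM => ?_)
    · obtain ⟨g, hg⟩ := isConj_iff.1 hu
      refine Subtype.ext ?_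
      show (u : G) * u = 1
      rw [← hg, conj_mul, hxx, mul_one, mul_inv_cancel]
    · have hMidx : (M.map (S : Subgroup G).subtype).relIndex (S : Subgroup G) = 2 := by
        rw [Subgroup.relIndex, show (M.map (S : Subgroup G).subtype).subgroupOf (S : Subgroup G) = M by
          rw [Subgroup.subgroupOf, Subgroup.comap_map_eq_self_of_injective (Subgroup.subtype_injective _)]]
        exact hM
      obtain ⟨g, hg⟩ := TransferEval.thompson_transfer hG S hMidx hxS (by rw [pow_two]; exact hxx)
      obtain ⟨w, hw, hwe⟩ := Subgroup.mem_map.1 hg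
      exact ⟨w, hw, isConj_iff.2 ⟨g⁻¹, by rw [inv_inv]; exact hwe.symm⟩⟩
  exact hne (Subgroup.eq_of_le_of_card_ge hVS (h4.trans hK.card_four.ge))

end CfsgLib.KleinCent
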